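import Cfsg.Agent.H632.PQ.Abs
import Cfsg.Agent.H89.PQX.Long

/-!
# S4612, linear characters of the parabolic subgroup normalising the highest root group (helper632)

`R : RGD cs h r T n X` on the finite group `Y`, `α₀` the highest root, `X α₀ = {x a | a ∈ F}`, `t x(a) t⁻¹ = x (χ t a)`.
`not_same_of_PJ` : the test for a homomorphism `lam : P_J →* C`, any parabolic subgroup `P_J`;
`not_same_of_rgd` : `Same p l Y` is false if `z ∈ T` is a `p`-element with `p ∣ orderOf (χ z)`, centralising `T` and the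
root groups orthogonal to `α₀`, and the scalars of `T` on `X α₀` and on the other conjugates of `X α₀` differ modulo the
elements of order prime to `p`.
-/

set_option autoImplicit false
set_option linter.unusedSectionVars false

namespace Cfsg.Agent.H632.PQ

open Cfsg.Agent.H317.PQ
open Cfsg Cfsg.Agent.H967.Sph Cfsg.Agent.H996.PQ
open CoxeterSystem Cfsg.Agent.ChevalleyStructure.CoxeterGeom Cfsg.Agent.Tits.Roots Cfsg.Agent.Tits.Core
  Cfsg.Agent.Tits.Exchange Cfsg.Agent.Nodes.Reps Cfsg.Agent.Nodes.BNOf Cfsg.Agent.Nodes.StabComb Cfsg.Agent.Nodes.Bruhat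
  Cfsg.Agent.Nodes.OppDec Cfsg.Agent.Nodes.LeviDec Cfsg.Agent.H89.PQX

universe u v

/-! ### Parabolic subgroups -/

section Par

variable {I W : Type*} {Y : Type u} [Fintype I] [DecidableEq I] [Group W] [Finite W] [Group Y]
    {M : CoxeterMatrix I} {cs : CoxeterSystem M W} {A : I → I → ℤ} {h : IsCartan M A} {r : ℕ} {T : Subgroup Y}
    {n : I → Y} {X : (I → ℤ) → Subgroup Y} (R : RGD cs h r T n X)

include R

theorem T_le_PJ (J : Set I) : T ≤ PJ cs h T X J := RGD.T_le_B.trans B_le_PJ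

/-- representatives normalise `T` -/
theorem conj_mem_T {w : W} {k : Y} (hk : Rp cs R.nsys w k) {t : Y} (ht : t ∈ T) : k⁻¹ * t * k ∈ T := by
  have h1 := Subgroup.mem_normalizer_iff.1 (inv_mem hk.mem_normalizer) t
  rw [inv_inv] at h1
  exact h1.1 ht

/-- **linear characters of `P_J`** -/
theorem not_same_of_PJ [Finite Y] [hrf : Fact r.Prime] {p l : ℕ} (hp : p.Prime) (hl : l.Prime)
    (hpl : p ≠ l) (hrl : r ≠ l) (hG : GG cs h T X = ⊤) (J : Set I) {C : Type*} [CommGroup C] [Finite C] [IsCyclic C]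
    (lam : ↥(PJ cs h T X J) →* C)
    (hm : ∀ w : W, w ∉ WJ cs J → ∀ k, ∀ hk : Rp cs R.nsys w k, ∃ (t : Y) (ht : t ∈ T),
      p ∣ orderOf (lam ⟨t, T_le_PJ R J ht⟩ / lam ⟨k⁻¹ * t * k, T_le_PJ R J (conj_mem_T R hk ht)⟩))
    {z : Y} (hzT : z ∈ T) (hcT : ∀ t ∈ T, t * z = z * t)
    (hcX : ∀ y ∈ RootsJ cs h J, ∀ a ∈ X y, a * z = z * a) (hzp : p ∣ orderOf (lam ⟨z, T_le_PJ R J hzT⟩)) :
    ¬ Same p l Y := by
  have hBP : RGD.B cs h T X ≤ PJ cs h T X J := B_le_PJ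
  have hTP : T ≤ PJ cs h T X J := RGD.T_le_B.trans hBP
  -- the unipotent radical
  set V := VJ cs h X J with hV
  have hVn : (V.subgroupOf (PJ cs h T X J)).Normal := by
    refine ⟨fun v hv g => ?_⟩
    rw [Subgroup.mem_subgroupOf] at hv ⊢
    exact (Subgroup.mem_normalizer_iff.1 (PJ_le_normalizer_VJ R _ g.2) _).1 hv
  have hVp : IsPGroup r ↥V := (R.isPGroup_Upos).to_le (VJ_le_U _)
  have hVp' : IsPGroup r ↥(V.subgroupOf (PJ cs h T X J)) := by
    refine hVp.of_injective (Subgroup.subgroupOfEquivOfLe (VJ_le_PJ : V ≤ PJ cs h T X J)).toMonoidHom ?_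
    exact (Subgroup.subgroupOfEquivOfLe (VJ_le_PJ : V ≤ PJ cs h T X J)).injective
  -- `z` centralises the Levi subgroup
  have hzL : ∀ g ∈ LJ cs h T X J, g * z = z * g := by
    have h1 : LJ cs h T X J ≤ Subgroup.centralizer {z} := by
      refine sup_le (fun t ht => ?_) (RGD.Sup_le fun y hy a ha => ?_)
      · rw [Subgroup.mem_centralizer_singleton_iff]; exact hcT t ht
      · rw [Subgroup.mem_centralizer_singleton_iff]
        exact hcX y hy a ha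
    intro g hg
    exact Subgroup.mem_centralizer_singleton_iff.1 (h1 hg)
  have hzP : z ∈ PJ cs h T X J := hTP hzT
  refine not_same' hp hl hpl hrl (PJ cs h T X J) lam ?_ (V.subgroupOf (PJ cs h T X J)) hVp' ⟨z, hzP⟩ ?_ hzp
  · -- Mackey
    intro g hg
    obtain ⟨b₁, hb₁, k, hk, b₂, hb₂, e⟩ := cell_wOf R hG g
    set w := wOf R hG g with hwd
    have hw : w ∉ WJ cs J := by
      intro hw
      apply hg
      rw [mem_PJ_iff_cell R]
      exact ⟨w, hw, cell_wOf R hG g⟩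
    obtain ⟨t, ht, hd⟩ := hm w hw k hk
    have hkt : k⁻¹ * t * k ∈ T := conj_mem_T R hk ht
    have h1 : b₁ * t * b₁⁻¹ ∈ PJ cs h T X J := mul_mem (mul_mem (hBP hb₁) (hTP ht)) (inv_mem (hBP hb₁))
    have e2 : g⁻¹ * (b₁ * t * b₁⁻¹) * g = b₂⁻¹ * (k⁻¹ * t * k) * b₂ := by rw [e]; group
    have h2 : g⁻¹ * (b₁ * t * b₁⁻¹) * g ∈ PJ cs h T X J := by
      rw [e2]
      exact mul_mem (mul_mem (inv_mem (hBP hb₂)) (hTP hkt)) (hBP hb₂)
    refine ⟨⟨_, h1⟩, h2, ?_⟩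
    have h3 : lam ⟨_, h1⟩ = lam ⟨t, hTP ht⟩ := by
      have h4 : (⟨_, h1⟩ : ↥(PJ cs h T X J)) = ⟨b₁, hBP hb₁⟩ * ⟨t, hTP ht⟩ * ⟨b₁, hBP hb₁⟩⁻¹ := rfl
      rw [h4, map_mul, map_mul, map_inv, mul_comm (lam ⟨b₁, _⟩), mul_inv_cancel_right]
    have h5 : lam ⟨_, h2⟩ = lam ⟨_, hTP hkt⟩ := by
      have h4 : (⟨_, h2⟩ : ↥(PJ cs h T X J)) = ⟨b₂, hBP hb₂⟩⁻¹ * ⟨_, hTP hkt⟩ * ⟨b₂, hBP hb₂⟩ := Subtype.ext e2
      rw [h4, map_mul, map_mul, map_inv, mul_comm (lam ⟨b₂, _⟩)⁻¹, inv_mul_cancel_right]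
    show p ∣ orderOf (lam ⟨_, h1⟩ / lam ⟨_, h2⟩)
    rw [h3, h5]
    exact hd
  · rintro ⟨g, hg⟩
    rw [Subgroup.mem_subgroupOf]
    show g * z * g⁻¹ * z⁻¹ ∈ V
    obtain ⟨q, hq, v, hv, rfl⟩ := (mem_PJ R).1 hg
    have h1 : q * v * z * (q * v)⁻¹ * z⁻¹ = q * (v * (z * v⁻¹ * z⁻¹)) * q⁻¹ := by
      have h2 : z * q = q * z := (hzL q hq).symm
      have h3 : q⁻¹ * z⁻¹ = z⁻¹ * q⁻¹ := by rw [← mul_inv_rev, ← mul_inv_rev, h2]
      calc q * v * z * (q * v)⁻¹ * z⁻¹ = q * v * z * v⁻¹ * (q⁻¹ * z⁻¹) := by group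
        _ = q * (v * (z * v⁻¹ * z⁻¹)) * q⁻¹ := by rw [h3]; group
    rw [h1]
    have h4 : z * v⁻¹ * z⁻¹ ∈ V := (Subgroup.mem_normalizer_iff.1 (PJ_le_normalizer_VJ R _ hzP) _).1 (inv_mem hv)
    exact (Subgroup.mem_normalizer_iff.1 (LJ_le_normalizer_VJ R _ hq) _).1 (mul_mem hv h4)

end Par

/-! ### Scalars -/

section Scal

variable {Y : Type u} [Group Y] {F : Type v} [Field F] (x : F → Y)

/-- the elements acting on the elements `x a` as scalars -/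
def scal : Subgroup Y where
  carrier := {g | ∃ c : Fˣ, ∀ a, g * x a * g⁻¹ = x (c * a)}
  mul_mem' := by
    rintro g k ⟨c, hc⟩ ⟨d, hd⟩
    refine ⟨c * d, fun a => ?_⟩
    have h1 : g * k * x a * (g * k)⁻¹ = g * (k * x a * k⁻¹) * g⁻¹ := by group
    rw [h1, hd, hc, Units.val_mul, mul_assoc]
  one_mem' := ⟨1, fun a => by simp⟩
  inv_mem' := by
    rintro g ⟨c, hc⟩
    refine ⟨c⁻¹, fun a => ?_⟩
    have h1 := hc (((c⁻¹ : Fˣ) : F) * a)
    rw [← mul_assoc, Units.mul_inv, one_mul] at h1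
    rw [← h1]
    group

variable {x}

theorem mem_scal {g : Y} : g ∈ scal x ↔ ∃ c : Fˣ, ∀ a, g * x a * g⁻¹ = x (c * a) := Iff.rfl

theorem mem_scal_of_commute {g : Y} (hg : ∀ a, g * x a = x a * g) : g ∈ scal x :=
  ⟨1, fun a => by rw [hg, mul_inv_cancel_right, Units.val_one, one_mul]⟩

/-- the scalar -/
noncomputable def ev (hinj : Function.Injective x) : scal x →* Fˣ where
  toFun g := g.2.choose
  map_one' := by
    have h1 := (1 : scal x).2.choose_spec 1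
    apply Units.ext
    have h2 : x 1 = x (((1 : scal x).2.choose : Fˣ) * 1) := by rw [← h1]; simp
    have h3 := hinj h2
    rw [mul_one] at h3
    exact h3.symm
  map_mul' := by
    intro g k
    have h1 := (g * k).2.choose_spec 1
    have h2 := g.2.choose_spec
    have h3 := k.2.choose_spec
    apply Units.ext
    have h4 : ((g * k : scal x) : Y) * x 1 * ((g * k : scal x) : Y)⁻¹ = (g : Y) * ((k : Y) * x 1 * (k : Y)⁻¹) * (g : Y)⁻¹ := by
      rw [Subgroup.coe_mul]; group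
    rw [h4, h3, h2] at h1
    have h5 := hinj h1
    rw [mul_one, mul_one] at h5
    rw [Units.val_mul]
    exact h5.symm

theorem ev_spec (hinj : Function.Injective x) (g : scal x) (a : F) :
    (g : Y) * x a * (g : Y)⁻¹ = x ((ev hinj g : Fˣ) * a) := g.2.choose_spec a

theorem ev_eq (hinj : Function.Injective x) {g : Y} (hg : g ∈ scal x) {c : F} (hc : g * x 1 * g⁻¹ = x c) :
    ((ev hinj ⟨g, hg⟩ : Fˣ) : F) = c := by
  have h1 := ev_spec hinj ⟨g, hg⟩ 1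
  rw [mul_one] at h1
  exact hinj (h1.symm.trans hc)

end Scal

section Rgd

variable {I W : Type*} {Y : Type u} [Fintype I] [DecidableEq I] [Group W] [Finite W] [Group Y]
    {M : CoxeterMatrix I} {cs : CoxeterSystem M W} {A : I → I → ℤ} {h : IsCartan M A} {r : ℕ} {T : Subgroup Y}
    {n : I → Y} {X : (I → ℤ) → Subgroup Y} (R : RGD cs h r T n X)
    {j₀ : I} {α₀ D : I → ℤ}

include R

/-- the root groups of the roots orthogonal to the highest root centralise its root group -/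
theorem cen_of_RootsJ (hi : Hi A j₀ α₀ D) (hc : Cen cs h X α₀) (hr : IsRoot cs h α₀) {y : I → ℤ}
    (hy : y ∈ RootsJ cs h {i | i ≠ j₀}) {a : Y} (ha : a ∈ X y) {b : Y} (hb : b ∈ X α₀) : a * b = b * a := by
  obtain ⟨w, hw, j, -, rfl⟩ := exists_of_mem_RootsJ hy
  obtain ⟨k, hk⟩ := exists_rp cs R.nsys w
  have h1 : k⁻¹ * a * k ∈ X (sr j) := by
    rw [← R.conj_rp hk (isRoot_sr cs h j)] at ha
    have h2 := conj_mem_cj.1 (show k * (k⁻¹ * a * k) * k⁻¹ ∈ cj k (X (sr j)) by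
      have : k * (k⁻¹ * a * k) * k⁻¹ = a := by group
      rw [this]; exact ha)
    exact h2
  have h3 : k⁻¹ * b * k ∈ X α₀ := by
    have h4 : b ∈ cj k (X α₀) := by rw [R.conj_rp hk hr, rep_hi_of_mem_WJ hi hw]; exact hb
    exact conj_mem_cj.1 (show k * (k⁻¹ * b * k) * k⁻¹ ∈ cj k (X α₀) by
      have : k * (k⁻¹ * b * k) * k⁻¹ = b := by group
      rw [this]; exact h4)
  have h5 := hc (sr j) (isRoot_sr cs h j) (sr_nonneg j) _ h1 _ h3
  have h6 : a * b = k * ((k⁻¹ * a * k) * (k⁻¹ * b * k)) * k⁻¹ := by group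
  rw [h6, h5]
  group

variable {F : Type v} [Field F] {x : F → Y} {χ : Y → F}

/-- `P_{j₀}` acts on `X α₀` by scalars -/
theorem PJ_le_scal (hi : Hi A j₀ α₀ D) (hc : Cen cs h X α₀) (hr : IsRoot cs h α₀) (hx : ∀ a, x a ∈ X α₀)
    (hinj : Function.Injective x) (hact : ∀ t ∈ T, ∀ a, t * x a * t⁻¹ = x (χ t * a)) :
    PJ cs h T X {i | i ≠ j₀} ≤ scal x := by
  have hT : T ≤ scal x := by
    intro t ht
    have h0 : χ t ≠ 0 := by
      intro h0
      have h1 := hact t ht 1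
      have h2 := hact t ht 0
      rw [h0, zero_mul] at h1 h2
      rw [← h2] at h1
      have h3 : x (1 : F) = x 0 := by
        have := mul_right_cancel h1
        exact mul_left_cancel this
      exact one_ne_zero (hinj h3)
    exact ⟨Units.mk0 _ h0, hact t ht⟩
  refine sup_le (sup_le hT (RGD.Sup_le fun y hy a ha => ?_)) (RGD.Sup_le fun y hy a ha => ?_)
  · exact mem_scal_of_commute fun b => cen_of_RootsJ R hi hc hr hy ha (hx b)
  · exact mem_scal_of_commute fun b => hc y hy.1 hy.2.1 a ha _ (hx b)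

/-- **linear characters of `P_{j₀}`** -/
theorem not_same_of_rgd' [Finite Y] [hrf : Fact r.Prime] [Finite F] {p l : ℕ} (hp : p.Prime) (hl : l.Prime)
    (hpl : p ≠ l) (hrl : r ≠ l) (hG : GG cs h T X = ⊤) (hi : Hi A j₀ α₀ D) (hc : Cen cs h X α₀) (hr : IsRoot cs h α₀)
    (hx : ∀ a, x a ∈ X α₀) (hinj : Function.Injective x) (hact : ∀ t ∈ T, ∀ a, t * x a * t⁻¹ = x (χ t * a))
    (hm : ∀ w : W, rep cs h w α₀ ≠ α₀ → ∀ k, Rp cs R.nsys w k → ∃ t ∈ T, p ∣ orderOf (χ t / χ (k⁻¹ * t * k)))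
    {z : Y} (hzT : z ∈ T) (hcT : ∀ t ∈ T, t * z = z * t)
    (hcX : ∀ y, IsRoot cs h y → y j₀ = 0 → ∀ a ∈ X y, a * z = z * a) (hzp : p ∣ orderOf (χ z)) : ¬ Same p l Y := by
  have hS : PJ cs h T X {i | i ≠ j₀} ≤ scal x := PJ_le_scal R hi hc hr hx hinj hact
  let lam : ↥(PJ cs h T X {i | i ≠ j₀}) →* Fˣ := (ev hinj).comp (Subgroup.inclusion hS)
  have hlam : ∀ (t : Y) (ht : t ∈ T), ((lam ⟨t, T_le_PJ R _ ht⟩ : Fˣ) : F) = χ t :=
    fun t ht => ev_eq hinj (hS (T_le_PJ R _ ht)) (by rw [hact t ht, mul_one])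
  refine not_same_of_PJ R hp hl hpl hrl hG {i | i ≠ j₀} lam ?_ hzT hcT
    (fun y hy a ha => hcX y hy.1 (hy.2 j₀ (by simp)) a ha) ?_
  · intro w hw k hk
    obtain ⟨t, ht, hd⟩ := hm w (fun he => hw (mem_WJ_of_fix_hi hi he)) k hk
    refine ⟨t, ht, ?_⟩
    rw [← orderOf_units, Units.val_div_eq_div_val, hlam t ht, hlam _ (conj_mem_T R hk ht)]
    exact hd
  · rw [← orderOf_units, hlam z hzT]
    exact hzp

/-- the same, `z` a `p`-element -/
theorem not_same_of_rgd [Finite Y] [hrf : Fact r.Prime] [Finite F] {p l : ℕ} (hp : p.Prime) (hl : l.Prime)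
    (hpl : p ≠ l) (hrl : r ≠ l) (hG : GG cs h T X = ⊤) (hi : Hi A j₀ α₀ D) (hc : Cen cs h X α₀) (hr : IsRoot cs h α₀)
    (hx : ∀ a, x a ∈ X α₀) (hinj : Function.Injective x) (hact : ∀ t ∈ T, ∀ a, t * x a * t⁻¹ = x (χ t * a))
    (hm : ∀ w : W, rep cs h w α₀ ≠ α₀ → ∀ k, Rp cs R.nsys w k → ∃ t ∈ T, p ∣ orderOf (χ t / χ (k⁻¹ * t * k)))
    {z : Y} (hzT : z ∈ T) (_hz : ∃ k : ℕ, z ^ p ^ k = 1) (hcT : ∀ t ∈ T, t * z = z * t)
    (hcX : ∀ y, IsRoot cs h y → y j₀ = 0 → ∀ a ∈ X y, a * z = z * a) (hzp : p ∣ orderOf (χ z)) : ¬ Same p l Y :=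
  not_same_of_rgd' R hp hl hpl hrl hG hi hc hr hx hinj hact hm hzT hcT hcX hzp

end Rgd

end Cfsg.Agent.H632.PQ
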