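import Cfsg.Agent.H632.PQ.Mackey
import Cfsg.Agent.Nodes.RGDTwCoord
import Cfsg.Agent.ChevalleyStructure.HMatDiagAll
import Cfsg.Agent.KFacts.RgdRigid

/-!
# S4612, linear characters: the twisted groups obtained by folding (helper632)

`not_same_of_fold` : `G ≤ GL` obtained by folding, `s₀` the highest root, with table checks.
-/

set_option autoImplicit false
set_option linter.unusedSectionVars false

namespace Cfsg.Agent.H632.PQ

open Cfsg.Agent.H317.PQ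
open Cfsg Cfsg.Agent.H967.Sph Cfsg.Agent.H996.PQ
open CoxeterSystem Cfsg.Agent.ChevalleyStructure.CoxeterGeom Cfsg.Agent.Tits.Roots Cfsg.Agent.Tits.Core
  Cfsg.Agent.Nodes.Reps Cfsg.Agent.Nodes.BNOf Cfsg.Agent.Nodes.StabComb Cfsg.Agent.Nodes.Bruhat
  Cfsg.Agent.Nodes.OppDec Cfsg.Agent.Nodes.LeviDec Cfsg.Agent.Nodes.RGDTwGen Cfsg.Agent.Nodes.RGDChev
  Cfsg.Agent.Nodes.RGDFold Cfsg.Agent.Nodes.RGDFoldSL Cfsg.Agent.Nodes.RGDTwCoord
open Cfsg.Lie Cfsg.Agent.ChevalleyStructure Cfsg.Agent.ChevalleyStructure.Elts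
  Cfsg.Agent.ChevalleyStructure.RootVec Cfsg.Agent.ChevalleyStructure.RootVecTab
  Cfsg.Agent.ChevalleyStructure.CoxeterGeomTypes
  Cfsg.Agent.ChevalleyStructure.TwistedU Cfsg.Agent.ChevalleyStructure.TwistedFix

universe u

theorem diag_comm {D : ChevalleyDatum} (hD : InList D) {K : Type*} [Field K] {x y : GL D.Idx K} (hx : x ∈ D.diagonalSubgroup K)
    (hy : y ∈ D.diagonalSubgroup K) : x * y = y * x := by
  obtain ⟨χ, hχ⟩ := HMatDiagAll.mem_torus.1 (HMatDiagAll.diagonalSubgroup_le_torus hD hx)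
  obtain ⟨ψ, hψ⟩ := HMatDiagAll.mem_torus.1 (HMatDiagAll.diagonalSubgroup_le_torus hD hy)
  apply Units.ext
  rw [Units.val_mul, Units.val_mul, hχ, hψ, Matrix.diagonal_mul_diagonal, Matrix.diagonal_mul_diagonal]
  congr 1
  funext i
  exact mul_comm _ _

/-- orders of `c ^ (± 1)`, `c ^ (± 2)` -/
theorem dvd_orderOf_zpow {K : Type*} [Field K] {c : K} (hc0 : c ≠ 0) {p : ℕ} (hpc : p ∣ orderOf (c ^ 2)) {k : ℤ}
    (hk : k.natAbs = 1 ∨ k.natAbs = 2) : p ∣ orderOf (c ^ k) := by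
  have h1 : p ∣ orderOf c := hpc.trans (orderOf_pow_dvd 2)
  have h2 : ∀ x : K, x ≠ 0 → orderOf x⁻¹ = orderOf x := by
    intro x hx
    have := orderOf_inv (Units.mk0 x hx)
    rw [← orderOf_units, ← orderOf_units, Units.val_inv_eq_inv_val, Units.val_mk0] at this
    exact this
  rcases hk with hk | hk
  · rcases Int.natAbs_eq k with h3 | h3
    · rw [h3, hk, Nat.cast_one, zpow_one]; exact h1
    · rw [h3, hk, Nat.cast_one, zpow_neg_one, h2 c hc0]; exact h1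
  · rcases Int.natAbs_eq k with h3 | h3
    · rw [h3, hk]; exact_mod_cast hpc
    · rw [h3, hk, zpow_neg, h2 _ (zpow_ne_zero _ hc0)]; exact_mod_cast hpc

/-- `∏ φ^k d` -/
def nrm {K : Type*} [Field K] (φ : K →+* K) {l : ℕ} : List (Fin l) → K → K
  | [], _ => 1
  | _ :: o, d => d * nrm φ o (φ d)

theorem wt_eq_nrm {D : ChevalleyDatum} {l : ℕ} {K : Type*} [Field K] {φ : K →+* K} {o : List (Fin l)} {s : ℕ} {e : ℤ}
    (h : ∀ j ∈ o, D.cartan j s = e) (d : K) : wt D φ o s d = nrm φ o d ^ e := by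
  induction o generalizing d with
  | nil => show (1 : K) = 1 ^ e; rw [one_zpow]
  | cons j o ih =>
    show d ^ D.cartan j s * wt D φ o s (φ d) = (d * nrm φ o (φ d)) ^ e
    rw [ih (fun j hj => h j (List.mem_cons_of_mem _ hj)), h j List.mem_cons_self, mul_zpow]

theorem wt_fixed {D : ChevalleyDatum} {l : ℕ} {K : Type*} [Field K] {φ : K →+* K} (o : List (Fin l)) (s : ℕ) {d : K}
    (hd0 : d ≠ 0) (hd : φ d = d) : wt D φ o s d = d ^ (o.map fun j : Fin l => D.cartan j s).sum := by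
  induction o with
  | nil => show (1 : K) = _; rw [List.map_nil, List.sum_nil, zpow_zero]
  | cons j o ih =>
    show d ^ D.cartan j s * wt D φ o s (φ d) = _
    rw [hd, ih, List.map_cons, List.sum_cons, zpow_add₀ hd0]

section

variable {D : ChevalleyDatum} {l m : ℕ} {M' : CoxeterMatrix (Fin l)} {hp : IsType D l M'} {K : Type u} [Field K]
  {M : CoxeterMatrix (Fin m)} {W : Type*} [Group W] {cs : CoxeterSystem M W}
  {A : Fin m → Fin m → ℤ} {h : IsCartan M A} {J : Fin m → List (Fin l)} {L : List (List ℕ)}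
  {σ : GL D.Idx K →* GL D.Idx K} {ρ ρ' : ℕ → ℕ} {f : ℕ → K → K} {G : Subgroup (GL D.Idx K)} {φ : K →+* K}

/-- the torus elements of the node `i` -/
theorem hI_mem (FG : FoldGrp hp K J L σ ρ ρ' f G) {i : Fin m} {r : ℕ} {o : List ℕ} (N : NodeOK D J L ρ i r o)
    (hf : ∀ s ∈ r :: o, ∀ t, f s t = φ t) {d : K} (hd : d ≠ 0) (hdφ : φ^[o.length + 1] d = d) :
    hI hp φ (J i) d ∈ D.diagonalSubgroup K ∧ hI hp φ (J i) d ∈ G := by
  have h1 := Phi_hS FG N hf (d := (⟨d, mem_Fx.2 hdφ⟩ : Fx φ (o.length + 1)))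
    (fun h0 => hd (congrArg Subtype.val h0))
  rw [Subgroup.mem_subgroupOf] at h1
  have h2 : ((Phi FG N hf (hS (⟨d, mem_Fx.2 hdφ⟩ : Fx φ (o.length + 1))) : ↥G) : GL D.Idx K) =
      hI hp φ (J i) d := by
    show Ph hp K N φ (Matrix.SpecialLinearGroup.map _ (hS _)) = _
    rw [map_hS]
    exact hv_eq_hI N.Jn N.lt _
  rw [h2] at h1
  exact h1

/-- representatives act monomially on the root elements -/
theorem rp_conj (FD : FoldData D M A J L) (FG : FoldGrp hp K J L σ ρ ρ' f G) [Finite K] {p : ℕ} [Fact p.Prime] [CharP K p]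
    (S : ℕ → Prop) (hS : ∀ s, S s → s < D.nroots) (hSJ : ∀ s, S s → ∀ i, S (wp D (J i) s)) {w : W} {k : ↥G}
    (hk : Rp cs (rgd cs h FD FG p).nsys w k) {s : ℕ} (hs : S s) :
    ∃ s', S s' ∧ V D J s' = rep cs h w (V D J s) ∧ ∃ c : K, c ≠ 0 ∧
      ∀ t, (k : GL D.Idx K) * xG hp.inList s t * (k : GL D.Idx K)⁻¹ = xG hp.inList s' (c * t) := by
  obtain ⟨ω, rfl⟩ := cs.wordProd_surjective w
  induction ω generalizing k with
  | nil =>
    rw [wordProd_nil] at hk ⊢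
    have h1 := Subgroup.mem_subgroupOf.1 hk.mem_of_one
    obtain ⟨c, hc, hct⟩ := BNChev.diagonal_conj hp.inList (F := K) h1.1 (hS s hs)
    exact ⟨s, hs, by rw [map_one, Module.End.one_apply], c, hc, hct⟩
  | cons i ω ih =>
    rw [wordProd_cons] at hk ⊢
    have h1 : Rp cs (rgd cs h FD FG p).nsys (cs.wordProd ω) ((⟨nI hp K (J i), FG.nG i⟩ : ↥G)⁻¹ * k) := by
      have := (rp_simple cs (rgd cs h FD FG p).nsys i).inv.mul hk
      rwa [inv_mul_cancel_left] at this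
    obtain ⟨s', hs', e, c, hc, hct⟩ := ih h1
    obtain ⟨η, hη, hηt⟩ := conj_xG (K := K) (hp := hp) (J i) (hS s' hs')
    refine ⟨wp D (J i) s', hSJ s' hs' i, ?_, η * c, mul_ne_zero hη.ne_zero hc, fun t => ?_⟩
    · rw [FD.wp_V s' (hS s' hs'), ← rep_refl (cs := cs) (h := h), e, rep_mul_apply]
    · have h2 : (k : GL D.Idx K) * xG hp.inList s t * (k : GL D.Idx K)⁻¹ =
          nI hp K (J i) * ((((⟨nI hp K (J i), FG.nG i⟩ : ↥G)⁻¹ * k : ↥G) : GL D.Idx K) * xG hp.inList s t *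
            (((⟨nI hp K (J i), FG.nG i⟩ : ↥G)⁻¹ * k : ↥G) : GL D.Idx K)⁻¹) * (nI hp K (J i))⁻¹ := by
        rw [Subgroup.coe_mul, Subgroup.coe_inv]
        group
      rw [h2, hct, hηt, mul_assoc]

/-- **linear characters, twisted groups** -/
theorem not_same_of_fold [Finite W] (FD : FoldData D M A J L) (FG : FoldGrp hp K J L σ ρ ρ' f G) [Finite K] {r : ℕ}
    [Fact r.Prime] [CharP K r] {rp : Fin m → ℕ} {rs : Fin m → List ℕ} (nodes : ∀ i, NodeOK D J L ρ i (rp i) (rs i))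
    (hf : ∀ i, ∀ s ∈ rp i :: rs i, ∀ t, f s t = φ t) {j₀ : Fin m} {α₀ Dl : Fin m → ℤ} (hi : Hi A j₀ α₀ Dl)
    (hc : Cen cs h (fun z => (R D hp K J σ z).subgroupOf G) α₀) (hr : IsRoot cs h α₀) {s₀ : ℕ} (hV₀ : V D J s₀ = α₀)
    (hs₀L : s₀ ∈ L.flatten) (hρ : ρ s₀ = s₀) (hfs₀ : ∀ t, f s₀ t = φ t)
    {S : ℕ → Prop} (hS : ∀ s, S s → s < D.nroots) (hSJ : ∀ s, S s → ∀ i, S (wp D (J i) s)) (hS₀ : S s₀)
    (e : Fin m → ℕ → ℤ) (he : ∀ s, S s → ∀ i, ∀ j ∈ J i, D.cartan j s = e i s)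
    (hdiff : ∀ s, S s → s ≠ s₀ → ∃ i, (e i s₀ - e i s).natAbs = 1 ∨ (e i s₀ - e i s).natAbs = 2)
    (hnorm : ∀ i, ∀ c : K, c ≠ 0 → φ c = c → ∃ d : K, d ≠ 0 ∧ φ^[(rs i).length + 1] d = d ∧ nrm φ (J i) d = c)
    (mv : Fin m → ℤ) (hm0 : ∀ s < D.nroots, V D J s j₀ = 0 →
      ((List.finRange m).map fun i => mv i * ((J i).map fun j : Fin l => D.cartan j s).sum).sum = 0)
    (hm2 : ((List.finRange m).map fun i => mv i * ((J i).map fun j : Fin l => D.cartan j s₀).sum).sum = 2)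
    {p q : ℕ} (hpp : p.Prime) (hq : q.Prime) (hpq : p ≠ q) (hrq : r ≠ q) {c : K} (hc0 : c ≠ 0) (hφc : φ c = c)
    (hpc : p ∣ orderOf (c ^ 2)) : ¬ Same p q ↥G := by
  have hfin : Finite (GL D.Idx K) := inferInstance
  have hs₀ : s₀ < D.nroots := FD.ltL hs₀L
  have RG := rgd cs h FD FG r
  have hG := KFacts.RgdRigid.GG_eq_top (T := (D.diagonalSubgroup K ⊓ G).subgroupOf G) (G1_eq_top cs h FD FG r)
  -- the coordinates
  have hσ : ∀ a : K, φ a = a → σ (xG hp.inList s₀ a) = xG hp.inList s₀ a := by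
    intro a ha
    rw [FG.setup.hσ s₀ hs₀L, hρ, hfs₀, ha]
  have hmemR : ∀ a : K, φ a = a → xG hp.inList s₀ a ∈ R D hp K J σ α₀ := fun a ha =>
    ⟨mem_rspan _ (S := {k | k < D.nroots ∧ V D J k = α₀}) ⟨hs₀, hV₀⟩ a, hσ a ha⟩
  have hmem : ∀ a : K, φ a = a → xG hp.inList s₀ a ∈ G := fun a ha => R_le cs h FD FG r hr (hmemR a ha)
  have hF : ∀ a : Fx φ 1, φ (a : K) = a := fun a => mem_Fx.1 a.2
  let x : Fx φ 1 → ↥G := fun a => ⟨xG hp.inList s₀ (a : K), hmem _ (hF a)⟩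
  have hxinj : Function.Injective x := by
    intro a b hab
    exact Subtype.ext (xG_injective hp.inList hs₀ (congrArg Subtype.val hab))
  have hxX : ∀ a, x a ∈ (R D hp K J σ α₀).subgroupOf G := fun a => Subgroup.mem_subgroupOf.2 (hmemR _ (hF a))
  -- the scalars
  have hsc : ∀ t : ↥G, (∃ c : K, ∀ u, (t : GL D.Idx K) * xG hp.inList s₀ u * (t : GL D.Idx K)⁻¹ = xG hp.inList s₀ (c * u)) →
      ∃ c : Fx φ 1, ∀ u : K, (t : GL D.Idx K) * xG hp.inList s₀ u * (t : GL D.Idx K)⁻¹ = xG hp.inList s₀ ((c : K) * u) := by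
    rintro t ⟨c, hc⟩
    refine ⟨⟨c, mem_Fx.2 ?_⟩, hc⟩
    have h1 := hc 1
    rw [mul_one] at h1
    have h2 : σ (xG hp.inList s₀ c) = xG hp.inList s₀ c := by
      rw [← h1, map_mul, map_mul, map_inv, hσ 1 (map_one φ), mem_fixS.1 (FG.G_le t.2)]
    rw [FG.setup.hσ s₀ hs₀L, hρ, hfs₀] at h2
    exact xG_injective hp.inList hs₀ h2
  classical
  let χ : ↥G → Fx φ 1 := fun t => if ht : ∃ c : K, ∀ u, (t : GL D.Idx K) * xG hp.inList s₀ u * (t : GL D.Idx K)⁻¹ =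
    xG hp.inList s₀ (c * u) then (hsc t ht).choose else 1
  have hχ : ∀ (t : ↥G) (c : K), (∀ u, (t : GL D.Idx K) * xG hp.inList s₀ u * (t : GL D.Idx K)⁻¹ = xG hp.inList s₀ (c * u)) →
      (χ t : K) = c := by
    intro t c hc
    have ht : ∃ c : K, ∀ u, (t : GL D.Idx K) * xG hp.inList s₀ u * (t : GL D.Idx K)⁻¹ = xG hp.inList s₀ (c * u) := ⟨c, hc⟩
    have h1 : χ t = (hsc t ht).choose := dif_pos ht
    have h2 := (hsc t ht).choose_spec 1
    rw [hc 1, ← h1] at h2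
    have h3 := xG_injective hp.inList hs₀ h2
    rw [mul_one, mul_one] at h3
    exact h3.symm
  have hact : ∀ t ∈ (D.diagonalSubgroup K ⊓ G).subgroupOf G, ∀ a, t * x a * t⁻¹ = x (χ t * a) := by
    intro t ht a
    obtain ⟨c, -, hct⟩ := BNChev.diagonal_conj hp.inList (F := K) (Subgroup.mem_subgroupOf.1 ht).1 hs₀
    apply Subtype.ext
    show (t : GL D.Idx K) * xG hp.inList s₀ (a : K) * (t : GL D.Idx K)⁻¹ = xG hp.inList s₀ ((χ t : K) * (a : K))
    rw [hct, hχ t c hct]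
  -- the element `z`
  have hzl : ∀ o : List (Fin m), ((o.map fun i => hI hp φ (J i) (c ^ mv i)).prod ∈ D.diagonalSubgroup K ∧
      (o.map fun i => hI hp φ (J i) (c ^ mv i)).prod ∈ G) ∧ ∀ s < D.nroots, ∀ u,
      (o.map fun i => hI hp φ (J i) (c ^ mv i)).prod * xG hp.inList s u * ((o.map fun i => hI hp φ (J i) (c ^ mv i)).prod)⁻¹ =
        xG hp.inList s (c ^ (o.map fun i => mv i * ((J i).map fun j : Fin l => D.cartan j s).sum).sum * u) := by
    intro o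
    induction o with
    | nil =>
      refine ⟨⟨one_mem _, one_mem _⟩, fun s _ u => ?_⟩
      rw [List.map_nil, List.prod_nil, List.map_nil, List.sum_nil, zpow_zero, one_mul, inv_one, mul_one, one_mul]
    | cons i o ih =>
      have hc1 : c ^ mv i ≠ 0 := zpow_ne_zero _ hc0
      have hc2 : φ (c ^ mv i) = c ^ mv i := by rw [map_zpow₀, hφc]
      obtain ⟨h1, h2⟩ := hI_mem FG (nodes i) (hf i) hc1 (Function.iterate_fixed hc2 _)
      rw [List.map_cons, List.prod_cons]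
      refine ⟨⟨mul_mem h1 ih.1.1, mul_mem h2 ih.1.2⟩, fun s hs u => ?_⟩
      have h3 : ∀ (a b y : GL D.Idx K), a * b * y * (a * b)⁻¹ = a * (b * y * b⁻¹) * a⁻¹ := fun a b y => by group
      rw [h3, ih.2 s hs, hI_conj (J i) hs hc1, wt_fixed (J i) s hc1 hc2, List.map_cons, List.sum_cons,
        zpow_add₀ hc0, zpow_mul, mul_assoc]
  obtain ⟨⟨hz1, hz2⟩, hz3⟩ := hzl (List.finRange m)
  set z : GL D.Idx K := ((List.finRange m).map fun i => hI hp φ (J i) (c ^ mv i)).prod with hz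
  have hzT : (⟨z, hz2⟩ : ↥G) ∈ (D.diagonalSubgroup K ⊓ G).subgroupOf G := Subgroup.mem_subgroupOf.2 ⟨hz1, hz2⟩
  have hord : ∀ a : Fx φ 1, orderOf a = orderOf (a : K) := fun a =>
    (orderOf_injective (Fx φ 1).subtype.toMonoidHom (Fx φ 1).subtype.injective a).symm
  refine not_same_of_rgd' RG hpp hq hpq hrq hG hi hc hr hxX hxinj hact ?_ hzT ?_ ?_ ?_
  · intro w hw k hk
    obtain ⟨s', hs', hV', c', hc', hct⟩ := rp_conj FD FG S hS hSJ hk hS₀
    have hne : s' ≠ s₀ := by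
      rintro rfl
      rw [hV₀] at hV'
      exact hw hV'.symm
    obtain ⟨i, hei⟩ := hdiff s' hs' hne
    obtain ⟨d, hd0, hdφ, hdn⟩ := hnorm i c hc0 hφc
    obtain ⟨h1, h2⟩ := hI_mem FG (nodes i) (hf i) hd0 hdφ
    refine ⟨⟨_, h2⟩, Subgroup.mem_subgroupOf.2 ⟨h1, h2⟩, ?_⟩
    have e1 : (χ ⟨_, h2⟩ : K) = c ^ e i s₀ := by
      refine hχ _ _ fun u => ?_
      rw [hI_conj (J i) hs₀ hd0, wt_eq_nrm (he s₀ hS₀ i), hdn]
    have e2 : (χ (k⁻¹ * ⟨_, h2⟩ * k) : K) = c ^ e i s' := by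
      refine hχ _ _ fun u => ?_
      have h3 : ((k⁻¹ * (⟨_, h2⟩ : ↥G) * k : ↥G) : GL D.Idx K) = (k : GL D.Idx K)⁻¹ * hI hp φ (J i) d * (k : GL D.Idx K) := rfl
      rw [h3]
      have h4 : (k : GL D.Idx K)⁻¹ * hI hp φ (J i) d * (k : GL D.Idx K) * xG hp.inList s₀ u *
          ((k : GL D.Idx K)⁻¹ * hI hp φ (J i) d * (k : GL D.Idx K))⁻¹ =
          (k : GL D.Idx K)⁻¹ * (hI hp φ (J i) d * ((k : GL D.Idx K) * xG hp.inList s₀ u * (k : GL D.Idx K)⁻¹) *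
            (hI hp φ (J i) d)⁻¹) * (k : GL D.Idx K) := by group
      rw [h4, hct, hI_conj (J i) (hS s' hs') hd0, wt_eq_nrm (he s' hs' i), hdn]
      have h5 : c ^ e i s' * (c' * u) = c' * (c ^ e i s' * u) := by ring
      rw [h5, ← hct]
      group
    rw [hord]
    have e3 : (((χ ⟨_, h2⟩ / χ (k⁻¹ * ⟨_, h2⟩ * k) : Fx φ 1)) : K) = c ^ (e i s₀ - e i s') := by
      rw [Subfield.coe_div, e1, e2, zpow_sub₀ hc0]
    rw [e3]
    exact dvd_orderOf_zpow hc0 hpc hei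
  · intro t ht
    exact Subtype.ext (diag_comm hp.inList (Subgroup.mem_subgroupOf.1 ht).1 hz1)
  · intro y _ hy0 a ha
    have h1 : R D hp K J σ y ≤ Subgroup.centralizer {z} := by
      refine inf_le_left.trans (rspan_le _ ?_)
      rintro s ⟨hs, hVs⟩ u
      rw [Subgroup.mem_centralizer_singleton_iff]
      have h2 := hz3 s hs u
      rw [hm0 s hs (by rw [hVs]; exact hy0), zpow_zero, one_mul, mul_inv_eq_iff_eq_mul] at h2
      exact h2.symm
    exact Subtype.ext (Subgroup.mem_centralizer_singleton_iff.1 (h1 (Subgroup.mem_subgroupOf.1 ha)))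
  · rw [hord, hχ ⟨z, hz2⟩ (c ^ (2 : ℤ)) fun u => by rw [hz3 s₀ hs₀, hm2]]
    exact_mod_cast hpc

end

end Cfsg.Agent.H632.PQ
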