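import Cfsg.Agent.H632.PQ.Fold
import Cfsg.Agent.H315.PQ.CenTw
import Cfsg.Agent.H317.PQ.Exc
import Cfsg.Agent.Nodes.RGDTwNode
import Cfsg.Agent.ChevalleyStructure.TwE6Basic
import Cfsg.Agent.ChevalleyStructure.D4Fixed

/-!
# S4612, linear characters: `²E₆(q)`, `³D₄(q)` (helper632)

`lin_twE6`, `linTwo_twE6`, `lin_twD4`, `linTwo_twD4`.
-/

set_option autoImplicit false
set_option linter.unusedSectionVars false

namespace Cfsg.Agent.H632.PQ

open Cfsg.Agent.H317.PQ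
open Cfsg Cfsg.Agent.H967.Sph Cfsg.Agent.H996.PQ
open CoxeterSystem Cfsg.Agent.ChevalleyStructure.CoxeterGeom Cfsg.Agent.Tits.Roots
  Cfsg.Agent.Nodes.RGDChev Cfsg.Agent.Nodes.RGDFold Cfsg.Agent.Nodes.RGDFoldSL
open Cfsg.Lie Cfsg.Agent.ChevalleyStructure

universe u

/-! ### Finite fields -/

theorem exists_pow_eq {K : Type*} [Field K] [Fintype K] {n m : ℕ} (hK : Fintype.card K = n * m + 1) (hn : n ≠ 0)
    {c : K} (hc : c ^ n = 1) : ∃ d : K, d ≠ 0 ∧ d ^ m = c := by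
  have hc0 : c ≠ 0 := by
    rintro rfl
    rw [zero_pow hn] at hc
    exact zero_ne_one hc
  obtain ⟨g, hg⟩ := IsCyclic.exists_generator (α := Kˣ)
  obtain ⟨k, hk⟩ := Subgroup.mem_zpowers_iff.1 (hg (Units.mk0 c hc0))
  have hord : orderOf g = n * m := by
    rw [orderOf_eq_card_of_forall_mem_zpowers hg, Nat.card_units, Nat.card_eq_fintype_card, hK, Nat.add_sub_cancel]
  have h1 : g ^ (k * n) = 1 := by
    rw [zpow_mul, hk, zpow_natCast]
    apply Units.ext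
    rw [Units.val_pow_eq_pow_val, Units.val_mk0, hc, Units.val_one]
  have h2 : ((n * m : ℕ) : ℤ) ∣ k * n := by
    rw [← hord]
    exact orderOf_dvd_iff_zpow_eq_one.2 h1
  rw [Nat.cast_mul, mul_comm k] at h2
  obtain ⟨k', rfl⟩ := Int.dvd_of_mul_dvd_mul_left (by exact_mod_cast hn) h2
  refine ⟨((g ^ k' : Kˣ) : K), Units.ne_zero _, ?_⟩
  have h3 : (g ^ k') ^ m = Units.mk0 c hc0 := by
    rw [← hk, ← zpow_natCast, ← zpow_mul, mul_comm]
  have h4 := congrArg Units.val h3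
  rw [Units.val_pow_eq_pow_val, Units.val_mk0] at h4
  exact h4

/-- an element of order `n` -/
theorem exists_orderOf {K : Type*} [Field K] [Fintype K] {n : ℕ} (hn : n ∣ Fintype.card K - 1) :
    ∃ c : K, c ≠ 0 ∧ orderOf c = n := by
  obtain ⟨g, hg⟩ := IsCyclic.exists_generator (α := Kˣ)
  have hord : orderOf g = Fintype.card K - 1 := by
    rw [orderOf_eq_card_of_forall_mem_zpowers hg, Nat.card_units, Nat.card_eq_fintype_card]
  obtain ⟨m, hm⟩ := hn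
  have h0 : orderOf g ≠ 0 := (orderOf_pos g).ne'
  have hm0 : m ≠ 0 := by
    rintro rfl
    rw [mul_zero] at hm
    exact h0 (hord.trans hm)
  refine ⟨((g ^ m : Kˣ) : K), Units.ne_zero _, ?_⟩
  rw [orderOf_units, orderOf_pow_of_dvd hm0 (by rw [hord, hm]; exact dvd_mul_left _ _), hord, hm,
    Nat.mul_div_cancel _ (Nat.pos_of_ne_zero hm0)]

/-- the element used: fixed by the Frobenius map, its square of order divisible by `p` -/
theorem exists_c {K : Type*} [Field K] [Fintype K] {q p : ℕ} {φ : K →+* K} (hφ : ∀ x, φ x = x ^ q) (hq : 1 < q)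
    (hK : q - 1 ∣ Fintype.card K - 1) (hp : p.Prime) (h : (p ≠ 2 ∧ p ∣ q - 1) ∨ (p = 2 ∧ q % 4 = 1)) :
    ∃ c : K, c ≠ 0 ∧ φ c = c ∧ p ∣ orderOf (c ^ 2) := by
  obtain ⟨c, hc0, hc⟩ := exists_orderOf (K := K) hK
  refine ⟨c, hc0, ?_, ?_⟩
  · have h1 : c ^ (q - 1) = 1 := by rw [← hc]; exact pow_orderOf_eq_one c
    rw [hφ]
    have h2 : q = (q - 1) + 1 := by omega
    rw [h2, pow_succ, h1, one_mul]
  · rcases h with ⟨h2, h3⟩ | ⟨h2, h3⟩
    · refine dvd_orderOf_pow hp (by rw [hc]; exact h3) ?_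
      intro h4
      exact h2 ((Nat.prime_dvd_prime_iff_eq hp Nat.prime_two).1 h4)
    · subst h2
      have h4 : 2 ∣ q - 1 := by omega
      rw [orderOf_pow_of_dvd two_ne_zero (by rw [hc]; exact h4), hc]
      omega

/-! ### `²E₆(q)` -/

section E6

open Cfsg.Agent.Nodes.RGDTwE6

/-- the roots fixed by the graph automorphism -/
def SE6 (s : ℕ) : Prop := s < 72 ∧ TwistedE6Sigma.rho s = s

instance decSE6 (s : ℕ) : Decidable (SE6 s) := inferInstanceAs (Decidable (_ ∧ _))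

theorem sE6_lt : ∀ s, SE6 s → s < chevE6.nroots := fun _ hs => hs.1

theorem sE6_wp' : ∀ s < 72, TwistedE6Sigma.rho s = s → ∀ i, SE6 (wp chevE6 (J i) s) := by decide +kernel

theorem sE6_wp (s : ℕ) (hs : SE6 s) (i : Fin 4) : SE6 (wp chevE6 (J i) s) := sE6_wp' s hs.1 hs.2 i

/-- the exponents -/
def eE6 (i : Fin 4) (s : ℕ) : ℤ := chevE6.cartan (((J i).headD 0 : Fin 6) : ℕ) s

theorem eE6_eq' : ∀ i : Fin 4, ∀ j : Fin 6, j ∈ J i → ∀ s < 72, TwistedE6Sigma.rho s = s →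
    chevE6.cartan (j : ℕ) s = eE6 i s := by
  decide +kernel

theorem eE6_diff' : ∀ s < 72, TwistedE6Sigma.rho s = s → s ≠ 71 →
    ∃ i, (eE6 i 71 - eE6 i s).natAbs = 1 ∨ (eE6 i 71 - eE6 i s).natAbs = 2 := by decide +kernel

theorem e6_m0 : ∀ s < chevE6.nroots, V chevE6 J s 0 = 0 →
    ((List.finRange 4).map fun i => (![2, 3, 2, 1] : Fin 4 → ℤ) i *
      ((J i).map fun j : Fin 6 => chevE6.cartan (j : ℕ) s).sum).sum = 0 := by decide +kernel

theorem e6_m2 : ((List.finRange 4).map fun i => (![2, 3, 2, 1] : Fin 4 → ℤ) i *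
      ((J i).map fun j : Fin 6 => chevE6.cartan (j : ℕ) 71).sum).sum = 2 := by decide +kernel

theorem not_same_twE6 {K : Type u} [Field K] [Fintype K] {x : ℕ} (hx : IsPrimePow x) (hK : Fintype.card K = x ^ 2)
    {p l : ℕ} (hp : p.Prime) (hl : l.Prime) (hpl : p ≠ l) (hlx : ¬ l ∣ x)
    (h : (p ≠ 2 ∧ p ∣ x - 1) ∨ (p = 2 ∧ x % 4 = 1)) : ¬ Same p l ↥(twistedE6 K x) := by
  obtain ⟨φ, hφ, hqq⟩ := TwE6Basic.exists_frob hx hK
  have h1 : 1 < x := hx.one_lt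
  obtain ⟨r, hr'⟩ := CharP.exists K
  have hr : r.Prime := CharP.char_is_prime K r
  have : Fact r.Prime := ⟨hr⟩
  have hrx : r ∣ x := by
    obtain ⟨n, hn, hc⟩ := FiniteField.card K r
    have h2 : r ∣ x ^ 2 := by rw [← hK, hc]; exact dvd_pow_self r n.ne_zero
    exact hr.dvd_of_dvd_pow h2
  have hrl : r ≠ l := fun e => hlx (e ▸ hrx)
  have hx2 : x ^ 2 = (x - 1) * (x + 1) + 1 := by
    obtain ⟨y, rfl⟩ : ∃ y, x = y + 1 := ⟨x - 1, by omega⟩
    rw [Nat.add_sub_cancel]; ring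
  obtain ⟨c, hc0, hφc, hpc⟩ := exists_c (K := K) hφ h1 (by rw [hK, hx2, Nat.add_sub_cancel]; exact dvd_mul_right _ _) hp h
  have : Finite CoxeterMatrix.F₄.Group :=
    finite_W (hp := Nodes.RGDTwE6.hp) CoxeterMatrix.F₄.toCoxeterSystem Nodes.RGDTwE6.isCartan Nodes.RGDTwE6.foldData
  have hcfix : c ^ (x - 1) = 1 := by
    have h3 : c ^ x = c := by rw [← hφ]; exact hφc
    have h4 : x = (x - 1) + 1 := by omega
    rw [h4, pow_succ] at h3
    exact mul_right_cancel₀ hc0 (by rw [h3, one_mul])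
  refine not_same_of_fold (cs := CoxeterMatrix.F₄.toCoxeterSystem) (h := Nodes.RGDTwE6.isCartan)
    (hp := Nodes.RGDTwE6.hp) (φ := φ) (r := r) Nodes.RGDTwE6.foldData (Nodes.RGDTwE6.foldGrp hφ hqq)
    Nodes.RGDTwNode.E6.nodeOK (fun i s hs t => by rw [Nodes.RGDTwNode.E6.eps_one i s hs, Int.cast_one, one_mul])
    H315.PQ.hi_TwE6 (H315.PQ.cen_TwE6 (q := x) _ φ) (H315.PQ.isRoot_TwE6 _) (s₀ := 71) (by decide +kernel)
    (by decide +kernel) (by decide +kernel) (fun t => ?_) sE6_lt sE6_wp (by decide +kernel) eE6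
    (fun s hs i j hj => eE6_eq' i j hj s hs.1 hs.2) (fun s hs => eE6_diff' s hs.1 hs.2) (fun i c' hc' hφ' => ?_) _ e6_m0 e6_m2 hp hl hpl hrl
    hc0 hφc hpc
  · have h2 : TwistedE6Sigma.eps 71 = 1 := by decide +kernel
    rw [h2, Int.cast_one, one_mul]
  · have hl : (J i = [(J i).headD 0] ∧ (Nodes.RGDTwNode.E6.rest i).length = 0) ∨
        ((∃ a b, J i = [a, b]) ∧ (Nodes.RGDTwNode.E6.rest i).length = 1) := by
      revert i; decide +kernel
    rcases hl with ⟨e1, e2⟩ | ⟨⟨a, b, e1⟩, e2⟩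
    · refine ⟨c', hc', by rw [e2]; exact hφ', ?_⟩
      rw [e1]
      exact mul_one c'
    · have h3 : c' ^ (x - 1) = 1 := by
        have h3 : c' ^ x = c' := by rw [← hφ]; exact hφ'
        have h4 : x = (x - 1) + 1 := by omega
        rw [h4, pow_succ] at h3
        exact mul_right_cancel₀ hc' (by rw [h3, one_mul])
      obtain ⟨d, hd0, hd⟩ := exists_pow_eq (K := K) (n := x - 1) (m := x + 1) (by rw [hK, hx2]) (by omega) h3
      refine ⟨d, hd0, ?_, ?_⟩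
      · rw [e2]
        show φ (φ d) = d
        rw [hφ, hφ]; exact hqq d
      · rw [e1]
        show d * (φ d * 1) = c'
        rw [mul_one, hφ, ← hd, pow_succ, mul_comm]

/-- **`Lin` for `²E₆(q)`** -/
theorem lin_twE6 {K : Type u} [Field K] [Fintype K] {x : ℕ} (hx : IsPrimePow x) (hK : Fintype.card K = x ^ 2) :
    Lin ↥(twistedE6 K x) x :=
  fun _ _ hp hl hp2 hpl hlx hpx _ => not_same_twE6 hx hK hp hl hpl hlx (Or.inl ⟨hp2, hpx⟩)

/-- **`LinTwo` for `²E₆(q)`** -/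
theorem linTwo_twE6 {K : Type u} [Field K] [Fintype K] {x : ℕ} (hx : IsPrimePow x) (hK : Fintype.card K = x ^ 2) :
    LinTwo ↥(twistedE6 K x) x :=
  fun h4 _ hl hl2 hlx _ => not_same_twE6 hx hK Nat.prime_two hl hl2.symm hlx (Or.inr ⟨rfl, h4⟩)

end E6

/-! ### `³D₄(q)` -/

section D4

open Cfsg.Agent.Nodes.RGDTwD4

/-- the roots fixed by the graph automorphism -/
def SD4 (s : ℕ) : Prop := s < 24 ∧ rho s = s

instance decSD4 (s : ℕ) : Decidable (SD4 s) := inferInstanceAs (Decidable (_ ∧ _))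

theorem sD4_lt (s : ℕ) (hs : SD4 s) : s < chevD4.nroots := hs.1

theorem sD4_wp' : ∀ s < 24, rho s = s → ∀ i, SD4 (wp chevD4 (J i) s) := by decide +kernel

theorem sD4_wp (s : ℕ) (hs : SD4 s) (i : Fin 2) : SD4 (wp chevD4 (J i) s) := sD4_wp' s hs.1 hs.2 i

/-- the exponents -/
def eD4 (i : Fin 2) (s : ℕ) : ℤ := chevD4.cartan (((J i).headD 0 : Fin 4) : ℕ) s

theorem eD4_eq' : ∀ i : Fin 2, ∀ j : Fin 4, j ∈ J i → ∀ s < 24, rho s = s →
    chevD4.cartan (j : ℕ) s = eD4 i s := by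
  decide +kernel

theorem eD4_diff' : ∀ s < 24, rho s = s → s ≠ 23 →
    ∃ i, (eD4 i 23 - eD4 i s).natAbs = 1 ∨ (eD4 i 23 - eD4 i s).natAbs = 2 := by decide +kernel

theorem d4_m0 : ∀ s < chevD4.nroots, V chevD4 J s 0 = 0 →
    ((List.finRange 2).map fun i => (![2, 1] : Fin 2 → ℤ) i *
      ((J i).map fun j : Fin 4 => chevD4.cartan (j : ℕ) s).sum).sum = 0 := by decide +kernel

theorem d4_m2 : ((List.finRange 2).map fun i => (![2, 1] : Fin 2 → ℤ) i *
      ((J i).map fun j : Fin 4 => chevD4.cartan (j : ℕ) 23).sum).sum = 2 := by decide +kernel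

theorem not_same_twD4 {K : Type u} [Field K] [Fintype K] {x : ℕ} (hx : IsPrimePow x) (hK : Fintype.card K = x ^ 3)
    {p l : ℕ} (hp : p.Prime) (hl : l.Prime) (hpl : p ≠ l) (hlx : ¬ l ∣ x)
    (h : (p ≠ 2 ∧ p ∣ x - 1) ∨ (p = 2 ∧ x % 4 = 1)) : ¬ Same p l ↥(twistedD4 K x) := by
  obtain ⟨φ, hφ⟩ := D4Fixed.exists_frob hx hK
  have hle := D4Fixed.twisted_le_fix hK hφ
  have h1 : 1 < x := hx.one_lt
  obtain ⟨r, hr'⟩ := CharP.exists K
  have hr : r.Prime := CharP.char_is_prime K r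
  have : Fact r.Prime := ⟨hr⟩
  have hrx : r ∣ x := by
    obtain ⟨n, hn, hc⟩ := FiniteField.card K r
    have h2 : r ∣ x ^ 3 := by rw [← hK, hc]; exact dvd_pow_self r n.ne_zero
    exact hr.dvd_of_dvd_pow h2
  have hrl : r ≠ l := fun e => hlx (e ▸ hrx)
  have hx2 : x ^ 3 = (x - 1) * (1 + x + x * x) + 1 := by
    obtain ⟨y, rfl⟩ : ∃ y, x = y + 1 := ⟨x - 1, by omega⟩
    rw [Nat.add_sub_cancel]; ring
  obtain ⟨c, hc0, hφc, hpc⟩ := exists_c (K := K) hφ h1 (by rw [hK, hx2, Nat.add_sub_cancel]; exact dvd_mul_right _ _) hp h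
  have : Finite CoxeterMatrix.G₂.Group :=
    finite_W (hp := Nodes.RGDTwD4.hp) CoxeterMatrix.G₂.toCoxeterSystem Nodes.RGDTwD4.isCartan Nodes.RGDTwD4.foldData
  refine not_same_of_fold (cs := CoxeterMatrix.G₂.toCoxeterSystem) (h := Nodes.RGDTwD4.isCartan)
    (hp := Nodes.RGDTwD4.hp) (φ := φ) (r := r) Nodes.RGDTwD4.foldData (Nodes.RGDTwD4.foldGrp hφ hle)
    Nodes.RGDTwNode.D4.nodeOK (fun i s hs t => by rw [Nodes.RGDTwNode.D4.eps_one i s hs, Int.cast_one, one_mul])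
    H315.PQ.hi_TwD4 (H315.PQ.cen_TwD4 (q := x) _ φ) (H315.PQ.isRoot_TwD4 _) (s₀ := 23) (by decide +kernel)
    (by decide +kernel) (by decide +kernel) (fun t => ?_) sD4_lt sD4_wp (by decide +kernel) eD4
    (fun s hs i j hj => eD4_eq' i j hj s hs.1 hs.2) (fun s hs => eD4_diff' s hs.1 hs.2) (fun i c' hc' hφ' => ?_) _ d4_m0 d4_m2 hp hl hpl hrl
    hc0 hφc hpc
  · have h2 : eps 23 = 1 := by decide +kernel
    rw [h2, Int.cast_one, one_mul]
  · have hl : (J i = [(J i).headD 0] ∧ (Nodes.RGDTwNode.D4.rest i).length = 0) ∨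
        ((∃ a b c, J i = [a, b, c]) ∧ (Nodes.RGDTwNode.D4.rest i).length = 2) := by
      revert i; decide +kernel
    rcases hl with ⟨e1, e2⟩ | ⟨⟨a, b, c, e1⟩, e2⟩
    · refine ⟨c', hc', by rw [e2]; exact hφ', ?_⟩
      rw [e1]
      exact mul_one c'
    · have h3 : c' ^ (x - 1) = 1 := by
        have h3 : c' ^ x = c' := by rw [← hφ]; exact hφ'
        have h4 : x = (x - 1) + 1 := by omega
        rw [h4, pow_succ] at h3
        exact mul_right_cancel₀ hc' (by rw [h3, one_mul])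
      obtain ⟨d, hd0, hd⟩ := exists_pow_eq (K := K) (n := x - 1) (m := 1 + x + x * x) (by rw [hK, hx2]) (by omega) h3
      refine ⟨d, hd0, ?_, ?_⟩
      · rw [e2]
        show φ (φ (φ d)) = d
        rw [hφ, hφ, hφ, ← pow_mul, ← pow_mul]
        have : x * (x * x) = x ^ 3 := by ring
        rw [this, ← hK]
        exact FiniteField.pow_card d
      · rw [e1]
        show d * (φ d * (φ (φ d) * 1)) = c'
        rw [mul_one, hφ, hφ, ← hd, ← pow_mul, pow_add, pow_add, pow_one, mul_assoc]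

/-- **`Lin` for `³D₄(q)`** -/
theorem lin_twD4 {K : Type u} [Field K] [Fintype K] {x : ℕ} (hx : IsPrimePow x) (hK : Fintype.card K = x ^ 3) :
    Lin ↥(twistedD4 K x) x :=
  fun _ _ hp hl hp2 hpl hlx hpx _ => not_same_twD4 hx hK hp hl hpl hlx (Or.inl ⟨hp2, hpx⟩)

/-- **`LinTwo` for `³D₄(q)`** -/
theorem linTwo_twD4 {K : Type u} [Field K] [Fintype K] {x : ℕ} (hx : IsPrimePow x) (hK : Fintype.card K = x ^ 3) :
    LinTwo ↥(twistedD4 K x) x :=
  fun h4 _ hl hl2 hlx _ => not_same_twD4 hx hK Nat.prime_two hl hl2.symm hlx (Or.inr ⟨rfl, h4⟩)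

end D4

end Cfsg.Agent.H632.PQ
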